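import Cfsg.Agent.H262.Core
import Cfsg.Prelude.Def_BaumannBlocks
import Cfsg.Prelude.Def_LocalEven

/-!
# The action of `P ≤ N_G(V)` on an abelian subgroup `V` by conjugation, in additive notation
-/

set_option autoImplicit false

open scoped commutatorElement

namespace Cfsg.Agent.H262.Conj

open Cfsg.Agent.H262.Pair Cfsg.Agent.H262.Core

variable {G : Type*} [Group G]

/-- `V` written additively -/
def Ad (V : Subgroup G) (_hV : IsMulCommutative V) : Type _ := Additive ↥V

def mk {V : Subgroup G} {hV : IsMulCommutative V} (v : ↥V) : Ad V hV := Additive.ofMul v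

def val {V : Subgroup G} {hV : IsMulCommutative V} (v : Ad V hV) : G := ((Additive.toMul v : ↥V) : G)

theorem val_mem {V : Subgroup G} {hV : IsMulCommutative V} (v : Ad V hV) : val v ∈ V :=
  (Additive.toMul v : ↥V).2

theorem val_mk {V : Subgroup G} {hV : IsMulCommutative V} (v : ↥V) : val (mk v : Ad V hV) = v := rfl

theorem val_inj {V : Subgroup G} {hV : IsMulCommutative V} {v w : Ad V hV} (h : val v = val w) :
    v = w := Subtype.ext h

instance instAddCommGroupAd (V : Subgroup G) (hV : IsMulCommutative V) : AddCommGroup (Ad V hV) :=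
  { (inferInstance : AddGroup (Additive ↥V)) with
    add_comm := fun a b => val_inj (by
      have := hV.is_comm.comm (Additive.toMul a) (Additive.toMul b)
      exact congrArg Subtype.val this) }

instance instFiniteAd [Finite G] (V : Subgroup G) (hV : IsMulCommutative V) : Finite (Ad V hV) :=
  (inferInstance : Finite ↥V)

theorem val_add {V : Subgroup G} {hV : IsMulCommutative V} (v w : Ad V hV) :
    val (v + w) = val v * val w := rfl

theorem val_zero {V : Subgroup G} {hV : IsMulCommutative V} : val (0 : Ad V hV) = 1 := rfl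

theorem val_neg {V : Subgroup G} {hV : IsMulCommutative V} (v : Ad V hV) :
    val (-v) = (val v)⁻¹ := rfl

theorem val_sub {V : Subgroup G} {hV : IsMulCommutative V} (v w : Ad V hV) :
    val (v - w) = val v * (val w)⁻¹ := by
  rw [sub_eq_add_neg, val_add, val_neg]

theorem val_nsmul {V : Subgroup G} {hV : IsMulCommutative V} (n : ℕ) (v : Ad V hV) :
    val (n • v) = val v ^ n := by
  induction n with
  | zero => rw [zero_smul, pow_zero, val_zero]
  | succ n ih => rw [succ_nsmul, val_add, ih, pow_succ]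

theorem conj_mem {V P : Subgroup G} (hPV : P ≤ Subgroup.normalizer (V : Set G)) {g v : G}
    (hg : g ∈ P) (hv : v ∈ V) : g * v * g⁻¹ ∈ V := ((Subgroup.mem_normalizer_iff.1 (hPV hg)) v).1 hv

/-- the action by conjugation -/
@[reducible] def act {V P : Subgroup G} (hV : IsMulCommutative V)
    (hPV : P ≤ Subgroup.normalizer (V : Set G)) : DistribMulAction ↥P (Ad V hV) where
  smul g v := mk ⟨g * val v * (g : G)⁻¹, conj_mem hPV g.2 (val_mem v)⟩
  one_smul v := val_inj (by
    show ((1 : ↥P) : G) * val v * ((1 : ↥P) : G)⁻¹ = val v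
    simp)
  mul_smul g h v := val_inj (by
    show ((g * h : ↥P) : G) * val v * ((g * h : ↥P) : G)⁻¹ = g * (h * val v * (h : G)⁻¹) * (g : G)⁻¹
    rw [Subgroup.coe_mul]; group)
  smul_zero g := val_inj (by
    show (g : G) * val (0 : Ad V hV) * (g : G)⁻¹ = val (0 : Ad V hV)
    rw [val_zero]; group)
  smul_add g v w := val_inj (by
    show (g : G) * val (v + w) * (g : G)⁻¹ = (g * val v * (g : G)⁻¹) * (g * val w * (g : G)⁻¹)
    rw [val_add]; group)

theorem val_smul {V P : Subgroup G} (hV : IsMulCommutative V)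
    (hPV : P ≤ Subgroup.normalizer (V : Set G)) (g : ↥P) (v : Ad V hV) :
    val ((act hV hPV).toSMul.smul g v) = g * val v * (g : G)⁻¹ := rfl

theorem mem_fix_iff {V P : Subgroup G} (hV : IsMulCommutative V)
    (hPV : P ≤ Subgroup.normalizer (V : Set G)) (H : Subgroup ↥P) (v : Ad V hV) :
    v ∈ @fix ↥P (Ad V hV) _ _ (act hV hPV) H ↔
      val v ∈ Subgroup.centralizer ((H.map P.subtype : Subgroup G) : Set G) := by
  rw [Subgroup.mem_centralizer_iff]
  constructor
  · rintro h _ ⟨a, ha, rfl⟩
    have h1 := congrArg val (h a ha)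
    have h2 : (a : G) * val v * (a : G)⁻¹ = val v := h1
    show (a : G) * val v = val v * a
    exact mul_inv_eq_iff_eq_mul.1 h2
  · intro h a ha
    apply val_inj
    have h1 := h (a : G) ⟨a, ha, rfl⟩
    show (a : G) * val v * (a : G)⁻¹ = val v
    rw [h1]; group

theorem card_fix {V P : Subgroup G} (hV : IsMulCommutative V)
    (hPV : P ≤ Subgroup.normalizer (V : Set G)) (H : Subgroup ↥P) :
    Nat.card (@fix ↥P (Ad V hV) _ _ (act hV hPV) H) =
      Nat.card (V ⊓ Subgroup.centralizer ((H.map P.subtype : Subgroup G) : Set G) : Subgroup G) := by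
  apply Nat.card_congr
  exact
    { toFun := fun v => ⟨val (v : Ad V hV), val_mem _, (mem_fix_iff hV hPV H v).1 v.2⟩
      invFun := fun v => ⟨mk ⟨v, v.2.1⟩, (mem_fix_iff hV hPV H _).2 v.2.2⟩
      left_inv := fun v => Subtype.ext (val_inj rfl)
      right_inv := fun v => rfl }

theorem card_Ad {V : Subgroup G} (hV : IsMulCommutative V) : Nat.card (Ad V hV) = Nat.card V := rfl

/-- the commutator `[V, H]` -/
theorem comm_mem {V P : Subgroup G} (hV : IsMulCommutative V)
    (hPV : P ≤ Subgroup.normalizer (V : Set G)) {H : Subgroup ↥P} {a : ↥P} (ha : a ∈ H)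
    (v : Ad V hV) :
    val ((act hV hPV).toSMul.smul a v - v) ∈ ⁅V, H.map P.subtype⁆ := by
  rw [val_sub, val_smul]
  have h1 : (a : G) * val v * (a : G)⁻¹ * (val v)⁻¹ = ⁅(a : G), val v⁆ := by
    rw [commutatorElement_def]
  rw [h1]
  rw [Subgroup.commutator_comm]
  exact Subgroup.commutator_mem_commutator ⟨a, ha, rfl⟩ (val_mem v)

end Cfsg.Agent.H262.Conj
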