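import Cfsg.Agent.H262.Concl
import Cfsg.Agent.Mrg.Omega.FFBr.Final

/-!
# The structure theorem for 2-minimal groups with offenders (S3000, p = 2)

`Ab X V T M` : `Abs X V T M` of `Omega.FFBr` without the condition that `V` is generated by the conjugates of `C_V(T)`.
* `exists_loc` : the local theorem, as in `FF.ToLocMain` (the proof there does not use that condition);
* `concl` : the conclusion `Concl 2 V T r E`.
-/

set_option autoImplicit false

namespace Cfsg.Agent.H262.OffTwo

open Cfsg.Agent.Omega.FF.Basic Cfsg.Agent.Omega.FF.Setup Cfsg.Agent.Omega.FF.Conf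
open Cfsg.Agent.Omega.FF Cfsg.Agent.Omega.FF.ToLoc
open Cfsg.Agent.ClassTwoFusion.Quad Cfsg.Agent.Omega.FFBr
open Cfsg.Agent.H262.Concl

/-- the abstract situation -/
structure Ab (X V : Type*) [Group X] [Group V] [MulDistribMulAction X V] (T : Sylow 2 X) (M : Subgroup X) : Prop where
  comm : ∀ v w : V, v * w = w * v
  sq : ∀ v : V, v * v = 1
  faith : ∀ x : X, (∀ v : V, x • v = v) → x = 1
  core : ∀ N : Subgroup X, N.Normal → IsPGroup 2 N → N = ⊥
  TM : (T : Subgroup X) ≤ M
  Mne : M ≠ ⊤
  max : ∀ K : Subgroup X, (T : Subgroup X) ≤ K → K ≤ M ∨ K = ⊤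
  nfix : ∃ v : V, (∀ t ∈ T, t • v = v) ∧ ∃ x : X, x • v ≠ v

section

variable {X V : Type*} [Group X] [CommGroup V] [MulDistribMulAction X V] [Finite X] [Finite V]

attribute [local instance] Cfsg.Agent.Omega.FF.ToLoc.addAct

theorem exists_hyp {T : Sylow 2 X} {M : Subgroup X} (h : Ab X V T M) (hoff : ∃ A : Subgroup X, AOff V A) :
    ∃ 𝒟 : Set (Subgroup X), Hyp (Additive V) 𝒟 := by
  obtain ⟨A₀, hA₀⟩ := hoff
  have h2 : ∀ v : Additive V, v + v = 0 := fun v => h.sq (Additive.toMul v)
  obtain ⟨A, hEA, hne, hmax, hmin⟩ := Quad.exists_min (V := Additive V) A₀ hA₀.sq hA₀.ne (ToLoc.le_mm hA₀.le)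
  have hmax' : ∀ g : X, ∀ E : Subgroup X, EA E → mm (Additive V) E ≤ mm (Additive V) (cj g A) := by
    intro g E hE
    rw [mm_cj]; exact hmax E hE
  have hne' : ∀ g : X, cj g A ≠ ⊥ := by
    intro g e
    apply hne
    rw [← cj_bot g] at e
    exact cj_inj e
  have hmin' : ∀ g : X, ∀ F < cj g A, F ≠ ⊥ → mm (Additive V) F < mm (Additive V) (cj g A) := by
    intro g F hF hF0
    rw [mm_cj, ← mm_cj g⁻¹ F]
    apply hmin
    · rw [lt_iff_le_and_ne] at hF ⊢
      refine ⟨?_, ?_⟩
      · have := cj_mono g⁻¹ hF.1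
        rwa [cj_inv_cj] at this
      · intro e
        apply hF.2
        rw [← e, cj_cj_inv]
    · intro e
      apply hF0
      rw [← cj_bot g⁻¹] at e
      exact cj_inj e
  refine ⟨{B | ∃ g : X, cj g A = B}, ?_⟩
  exact
  { h2 := h2
    faith := fun x hx => h.faith x fun v => hx (Additive.ofMul v)
    o2 := h.core
    mp := by
      intro T'
      obtain ⟨g, hg⟩ := MulAction.exists_smul_eq X T T'
      refine ⟨cj g M, ?_, ?_⟩
      · intro e
        apply h.Mne
        rw [← cj_top g] at e
        exact cj_inj e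
      · intro H hTH hH
        have h1 : (T : Subgroup X) ≤ cj g⁻¹ H := by
          have h3 := cj_mono g⁻¹ hTH
          rw [← hg, coe_smul, cj_inv_cj] at h3
          exact h3
        have h4 : cj g⁻¹ H ≤ M := by
          refine (h.max _ h1).resolve_right ?_
          intro e
          apply hH
          rw [← cj_top g⁻¹] at e
          exact cj_inj e
        have h5 := cj_mono g h4
        rwa [cj_cj_inv] at h5
    vec := by
      intro T'
      obtain ⟨g, hg⟩ := MulAction.exists_smul_eq X T T'
      obtain ⟨v, hv, x, hx⟩ := h.nfix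
      have hv' : Additive.ofMul v ∈ fx (Additive V) (T : Subgroup X) := hv
      refine ⟨g • Additive.ofMul v, ?_, ?_⟩
      · rw [← hg, coe_smul]
        exact smul_mem_fx_cj hv'
      · intro hcon
        apply hx
        have h1 := hcon (g * x * g⁻¹) (Subgroup.mem_top _)
        rw [smul_smul, inv_mul_cancel_right, mul_smul] at h1
        exact smul_left_cancel g h1
    conj := by
      rintro _ ⟨g, rfl⟩ k
      exact ⟨k * g, (cj_cj k g A).symm⟩
    tr := by
      rintro _ ⟨g, rfl⟩ _ ⟨k, rfl⟩
      refine ⟨k * g⁻¹, ?_⟩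
      rw [cj_cj, inv_mul_cancel_right]
    ne := ⟨A, 1, cj_one A⟩
    ea := by
      rintro _ ⟨g, rfl⟩
      exact EA.cj hEA g
    nb := by
      rintro _ ⟨g, rfl⟩
      exact hne' g
    max := by
      rintro _ ⟨g, rfl⟩
      exact hmax' g
    min := by
      rintro _ ⟨g, rfl⟩
      exact hmin' g
    quad := by
      rintro _ ⟨g, rfl⟩
      exact Quad.quad h2 (EA.cj hEA g) (hne' g) (hmax' g) (hmin' g) }

theorem exists_loc_comm {T : Sylow 2 X} {M : Subgroup X} (h : Ab X V T M) (hoff : ∃ A : Subgroup X, AOff V A) :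
    ∃ (𝒟 : Set (Subgroup X)) (q : ℕ) (Q : Subgroup X), Glob.Loc V T M 𝒟 q Q := by
  obtain ⟨𝒟, hyp⟩ := exists_hyp h hoff
  obtain ⟨D, c⟩ := exists_cfg hyp
  obtain ⟨q, hq⟩ := loc_of hyp c h.TM h.Mne h.max
  exact ⟨𝒟, q, D, hq⟩

end

/-- the local theorem -/
theorem exists_loc {X V : Type*} [Group X] [Group V] [MulDistribMulAction X V] [Finite X] [Finite V]
    {T : Sylow 2 X} {M : Subgroup X} (h : Ab X V T M) (hoff : ∃ A : Subgroup X, AOff V A) :
    ∃ (𝒟 : Set (Subgroup X)) (q : ℕ) (Q : Subgroup X), Glob.Loc V T M 𝒟 q Q := by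
  let _ : CommGroup V := { (inferInstance : Group V) with mul_comm := h.comm }
  exact exists_loc_comm h hoff

/-! ### `q > 2` -/

section out

open Subgroup Glob

variable {X V : Type*} [Group X] [Group V] [MulDistribMulAction X V]

theorem natSL_of {A B : Subgroup X} (h : Nat2 V A B) : NatSL V (A ⊔ B) := by
  obtain ⟨F, iF, iFin, π, φ, h⟩ := h
  exact ⟨F, iF, iFin, MulEquiv.ofBijective φ h.bij, π, h.mul, h.surj, h.ker, h.act⟩

theorem concl_of_out {T : Sylow 2 X} {k : ℕ} {A B : Fin k → Subgroup X} (hk : 0 < k) (o : Out0 V T k A B) :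
    Concl V 2 (T : Subgroup X) k (fun i => A i ⊔ B i) where
  pos := hk
  comm i j hij g hg x hx := o.LL i j hij g hg x hx
  gen := by
    apply o.gen
    · exact le_sup_right
    · intro i
      exact le_trans (le_iSup (fun i => A i ⊔ B i) i) le_sup_left
  trans := by
    intro i j
    obtain ⟨t, ht, hA⟩ := o.trans i j
    refine ⟨t, ht, ?_⟩
    have hmap : ∀ H : Subgroup X, H.map (MulAut.conj t).toMonoidHom = Glob.cj t H := by
      intro H
      ext x
      rw [Glob.mem_cj]
      constructor
      · rintro ⟨y, hy, rfl⟩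
        show t⁻¹ * (t * y * t⁻¹) * t ∈ H
        have e : t⁻¹ * (t * y * t⁻¹) * t = y := by group
        rw [e]; exact hy
      · intro hx
        refine ⟨_, hx, ?_⟩
        show t * (t⁻¹ * x * t) * t⁻¹ = x
        group
    rw [hmap]
    obtain ⟨j', hj'⟩ := o.cjL t i
    have hle : A j ≤ A j' ⊔ B j' := by
      rw [← hj', ← hA]
      intro x hx
      rw [Glob.mem_cj] at hx ⊢
      exact (le_sup_left : A i ≤ A i ⊔ B i) hx
    by_cases hjj : j' = j
    · rw [hj', hjj]
    · exfalso
      -- `A j` acts trivially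
      have h1 : ∀ a ∈ A j, a = 1 := by
        intro a ha
        obtain ⟨F, iF, iFin, π, φ, h⟩ := o.nat j
        have ha' : a ∈ A j ⊔ B j := (le_sup_left : A j ≤ A j ⊔ B j) ha
        have h2 : ∀ v : V, a • v = v := by
          intro v
          have h3 := o.mod j' j hjj a (hle ha)
          -- `φ a = 1`
          have h4 : ∀ u : V, π (d a u) = 0 := fun u => (h.ker _).2 fun y hy => h3 y hy u
          have h5 : ∀ y : Fin 2 → F, (φ ⟨a, ha'⟩).1.mulVec y = y := by
            intro y
            obtain ⟨u, rfl⟩ := h.surj y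
            rw [← h.act ⟨a, ha'⟩ u]
            have h6 := h4 u
            rw [Cfsg.Agent.ClassTwoFusion.Quad.d, h.mul] at h6
            have h7 : π u + π u = 0 := by
              rw [← h.mul, o.sq]
              have := h.mul 1 1
              rw [mul_one] at this
              exact left_eq_add.1 this
            have h8 : π (a • u) + π u = π u + π u := by rw [h6, h7]
            exact add_right_cancel h8
          have h6 : φ ⟨a, ha'⟩ = 1 := by
            apply Subtype.ext
            apply Matrix.toLin'.injective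
            apply LinearMap.ext
            intro y
            rw [Matrix.toLin'_apply, Matrix.toLin'_apply, h5]
            show y = (1 : Matrix (Fin 2) (Fin 2) F).mulVec y
            rw [Matrix.one_mulVec]
          have h7 : (⟨a, ha'⟩ : ↥(A j ⊔ B j)) = 1 := by
            apply h.bij.1
            rw [h6, map_one]
          have h8 : a = 1 := congrArg Subtype.val h7
          rw [h8, one_smul]
        exact o.faith a h2
      have h2 : Nat.card (A j) = 1 := by
        have : A j = ⊥ := by
          rw [eq_bot_iff]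
          intro a ha
          exact Subgroup.mem_bot.2 (h1 a ha)
        rw [this, Subgroup.card_bot]
      have := o.card4 j
      omega
  mod := by
    intro i j hij g hg x hx v
    have h1 := o.mod i j hij g hg x hx v
    have h2 : g • v * v⁻¹ = d g v := by
      rw [Cfsg.Agent.ClassTwoFusion.Quad.d, inv_eq_of_mul_eq_one_left (o.sq v)]
    rw [h2]
    exact h1
  nat i := Or.inl (natSL_of (o.nat i))

end out

/-! ### `q = 2` -/

section sym

open Subgroup Cfsg.Agent.Omega.Transv Cfsg.Agent.Omega.FFBr.Two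

variable {X : Type*} [Group X] {V : Type*} [Group V] [MulDistribMulAction X V]
  {V' : Type*} [AddCommGroup V'] [Module (ZMod 2) V'] [DistribMulAction X V']
  {T : Sylow 2 X} {k m : ℕ} {w : Fin k → Fin (2 ^ m + 1) → V'} {ι : V → V'}

/-- the homomorphism from `S_{2^m+1}^k` -/
noncomputable def lam (h : SymMod X V' T k m w) : (Fin k → Equiv.Perm (Fin (2 ^ m + 1))) →* X where
  toFun τ := (exists_lift h τ).choose
  map_one' := Acts.eq h (exists_lift h 1).choose_spec.2 Acts.one
  map_mul' a b := Acts.eq h (exists_lift h (a * b)).choose_spec.2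
    ((exists_lift h a).choose_spec.2.mul (exists_lift h b).choose_spec.2)

theorem lam_mem (h : SymMod X V' T k m w) (τ : Fin k → Equiv.Perm (Fin (2 ^ m + 1))) :
    lam h τ ∈ closure (DD X V') := (exists_lift h τ).choose_spec.1

theorem lam_acts (h : SymMod X V' T k m w) (τ : Fin k → Equiv.Perm (Fin (2 ^ m + 1))) :
    Acts w (lam h τ) 1 τ := (exists_lift h τ).choose_spec.2

/-- the `i`-th factor, as a homomorphism -/
noncomputable def lamI (h : SymMod X V' T k m w) (i : Fin k) : Equiv.Perm (Fin (2 ^ m + 1)) →* X :=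
  (lam h).comp (MonoidHom.mulSingle (fun _ : Fin k => Equiv.Perm (Fin (2 ^ m + 1))) i)

theorem lamI_acts (h : SymMod X V' T k m w) (i : Fin k) (s : Equiv.Perm (Fin (2 ^ m + 1))) :
    Acts w (lamI h i s) 1 (Pi.mulSingle i s) := lam_acts h _

theorem lamI_inj (h : SymMod X V' T k m w) (i : Fin k) : Function.Injective (lamI h i) := by
  intro s t hst
  have h1 := lamI_acts h i s
  rw [hst] at h1
  have h2 := (Acts.unique h h1 (lamI_acts h i t)).2
  exact Pi.mulSingle_injective (M := fun _ : Fin k => Equiv.Perm (Fin (2 ^ m + 1))) i h2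

theorem mem_range_iff (h : SymMod X V' T k m w) (i : Fin k) (g : X) :
    g ∈ (lamI h i).range ↔ ∃ s, Acts w g 1 (Pi.mulSingle i s) := by
  constructor
  · rintro ⟨s, rfl⟩
    exact ⟨s, lamI_acts h i s⟩
  · rintro ⟨s, hs⟩
    exact ⟨s, Acts.eq h (lamI_acts h i s) hs⟩

theorem fix_of_crd (h : SymMod X V' T k m w) (i : Fin k) {v : V'} (hv : crd h v i = 0)
    (s : Equiv.Perm (Fin (2 ^ m + 1))) : lamI h i s • v = v := by
  set g := lamI h i s with hg
  have hgD : g ∈ closure (DD X V') := lam_mem h _
  have hact : Acts w g 1 (Pi.mulSingle i s) := lamI_acts h i s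
  obtain ⟨a, ha, b, hb, rfl⟩ : ∃ a ∈ spn w, ∃ b ∈ fixS V' (closure (DD X V')), a + b = v := by
    have := h.compl.sup_eq_top
    have h2 : v ∈ spn w ⊔ fixS V' (closure (DD X V')) := by rw [spn, this]; exact Submodule.mem_top
    exact Submodule.mem_sup.1 h2
  have hb0 : crd h b = 0 := (crd_eq_zero_iff h).2 hb
  have ha0 : crd h a i = 0 := by
    rw [map_add, hb0, add_zero] at hv
    exact hv
  have h1 : crd h (g • a - a) = 0 := by
    funext j y
    have h2 := crd_smul h hact a j (((Pi.mulSingle i s : Fin k → Equiv.Perm (Fin (2 ^ m + 1))) j)⁻¹ y)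
    have e0 : ((Pi.mulSingle i s : Fin k → Equiv.Perm (Fin (2 ^ m + 1))) j)
        (((Pi.mulSingle i s : Fin k → Equiv.Perm (Fin (2 ^ m + 1))) j)⁻¹ y) = y := by simp
    rw [e0] at h2
    rw [map_sub, Pi.sub_apply, Pi.sub_apply]
    show crd h (g • a) ((1 : Equiv.Perm (Fin k)) j) y - crd h a j y = 0
    rw [h2]
    by_cases hj : j = i
    · subst hj
      rw [ha0]; simp
    · rw [Pi.mulSingle_eq_of_ne hj]
      simp
  have h2 : g • a - a ∈ spn w := Submodule.sub_mem _ (inv_spn h g a ha) ha
  have h3 : g • a - a ∈ fixS V' (closure (DD X V')) := (crd_eq_zero_iff h).1 h1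
  have h4 : g • a - a = 0 := by
    have h5 := h.compl.disjoint
    rw [Submodule.disjoint_def] at h5
    exact h5 _ h2 h3
  rw [smul_add, fix_D hgD hb, sub_eq_zero.1 h4]

theorem concl_of_sym [Finite X] (h : SymMod X V' T k m w) (i₀ : Tr X ι) (hsq : ∀ v : V, v * v = 1) :
    Concl V 2 (T : Subgroup X) k (fun i => (lamI h i).range) where
  pos := h.k_pos
  comm := by
    rintro i j hij _ ⟨s, rfl⟩ _ ⟨t, rfl⟩
    show lam h (Pi.mulSingle i s) * lam h (Pi.mulSingle j t) = lam h (Pi.mulSingle j t) * lam h (Pi.mulSingle i s)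
    rw [← map_mul, ← map_mul]
    congr 1
    exact (Pi.mulSingle_commute (f := fun _ : Fin k => Equiv.Perm (Fin (2 ^ m + 1))) hij s t)
  gen := by
    rw [eq_top_iff, ← h.gen]
    refine sup_le_sup_right ?_ _
    rw [closure_le]
    rintro d ⟨a, χ, hd⟩
    obtain ⟨i, x, y, hxy, -, h1⟩ := h.all d a χ hd
    apply Subgroup.mem_iSup_of_mem i
    rw [mem_range_iff]
    refine ⟨Equiv.swap x y, fun j z => ?_⟩
    rw [(h1 j z).1]
    by_cases hj : j = i
    · subst hj
      rw [if_pos rfl, Pi.mulSingle_eq_same]; rfl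
    · rw [if_neg hj, Pi.mulSingle_eq_of_ne hj]; rfl
  trans := by
    intro i j
    obtain ⟨t, ht, htw⟩ := h.trans i j
    refine ⟨t, ht, ?_⟩
    obtain ⟨σ, τ, hστ'⟩ := h.perm t
    have hστ : Acts w t σ τ := hστ'
    have hσ : σ i = j := by
      have h1 := hστ i 0
      rw [htw] at h1
      exact (w_inj h h1).1.symm
    have hcard : ∀ i, Nat.card (lamI h i).range = Nat.card (Equiv.Perm (Fin (2 ^ m + 1))) := fun i =>
      (Nat.card_congr (MonoidHom.ofInjective (lamI_inj h i)).toEquiv).symm
    apply Subgroup.eq_of_le_of_card_ge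
    · rintro _ ⟨_, ⟨s, rfl⟩, rfl⟩
      rw [mem_range_iff]
      refine ⟨τ i * s * (τ i)⁻¹, ?_⟩
      intro l x
      show (t * lamI h i s * t⁻¹) • w l x = _
      rw [mul_smul, mul_smul, (Acts.inv hστ) l x, lamI_acts h i s, hστ]
      show w (σ ((1 : Equiv.Perm (Fin k)) (σ⁻¹ l))) _ = w l _
      have e1 : σ ((1 : Equiv.Perm (Fin k)) (σ⁻¹ l)) = l := by simp
      rw [e1]
      congr 1
      by_cases hl : l = j
      · have e2 : σ⁻¹ l = i := by rw [hl, ← hσ]; simp
        rw [hl, Pi.mulSingle_eq_same, ← hl, e2, Pi.mulSingle_eq_same]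
        show τ i (s ((τ (σ⁻¹ l))⁻¹ x)) = τ i (s ((τ i)⁻¹ x))
        rw [e2]
      · have e2 : σ⁻¹ l ≠ i := by
          intro h0
          apply hl
          rw [← hσ, ← h0]; simp
        rw [Pi.mulSingle_eq_of_ne hl, Pi.mulSingle_eq_of_ne e2]
        show τ (σ⁻¹ l) ((τ (σ⁻¹ l))⁻¹ x) = x
        simp
    · rw [Subgroup.card_map_of_injective (MulAut.conj t).injective, hcard, hcard]
  mod := by
    rintro i j hij _ ⟨s, rfl⟩ _ ⟨s', rfl⟩ v
    apply i₀.inj
    rw [i₀.act]
    apply fix_of_crd
    rw [inv_eq_of_mul_eq_one_left (hsq v), i₀.mul, i₀.act, map_add]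
    funext y
    have h2 := crd_smul h (lamI_acts h i s) (ι v) j y
    rw [Pi.mulSingle_eq_of_ne (Ne.symm hij)] at h2
    have h3 : crd h (lamI h i s • ι v) j y = crd h (ι v) j y := h2
    rw [Pi.add_apply, Pi.add_apply, h3, CharTwo.add_self_eq_zero]
    rfl
  nat := by
    intro i
    refine Or.inr ⟨rfl, m, h.m_pos, (MonoidHom.ofInjective (lamI_inj h i)).symm, fun v => crd h (ι v) i, ?_, ?_, ?_,
      ?_, ?_⟩
    · intro v u
      show crd h (ι (v * u)) i = crd h (ι v) i + crd h (ι u) i
      rw [i₀.mul, map_add]; rfl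
    · intro v
      exact crd_even h _ i
    · intro y hy
      obtain ⟨v', hv'⟩ := crd_surj h (Pi.single i y) (by
        intro j
        by_cases hj : j = i
        · subst hj
          rw [Pi.single_eq_same]; exact hy
        · rw [Pi.single_eq_of_ne hj]; simp)
      obtain ⟨v, rfl⟩ := i₀.surj v'
      refine ⟨v, ?_⟩
      show crd h (ι v) i = y
      rw [hv', Pi.single_eq_same]
    · intro v
      constructor
      · rintro hv _ ⟨s, rfl⟩
        apply i₀.inj
        rw [i₀.act]
        exact fix_of_crd h i hv s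
      · intro hv
        have hconst : ∀ x, crd h (ι v) i x = crd h (ι v) i 0 := by
          intro x
          have h1 := hv _ ⟨Equiv.swap 0 x, rfl⟩
          have h2 := crd_smul h (lamI_acts h i (Equiv.swap 0 x)) (ι v) i 0
          rw [Pi.mulSingle_eq_same, Equiv.swap_apply_left, ← i₀.act, h1] at h2
          exact h2
        have h1 := crd_even h (ι v) i
        rw [Finset.sum_congr rfl fun x _ => hconst x, ← mul_one (crd h (ι v) i 0), ← Finset.mul_sum,
          sum_one' h.m_pos, mul_one] at h1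
        funext x
        show crd h (ι v) i x = 0
        rw [hconst, h1]
    · rintro ⟨_, s, rfl⟩ v x
      have h1 : (MonoidHom.ofInjective (lamI_inj h i)).symm ⟨lamI h i s, s, rfl⟩ = s := by
        rw [MulEquiv.symm_apply_eq]
        rfl
      rw [h1]
      show crd h (ι (lamI h i s • v)) i x = crd h (ι v) i (s⁻¹ x)
      rw [i₀.act]
      have h2 := crd_smul h (lamI_acts h i s) (ι v) i (s⁻¹ x)
      have e0 : s (s⁻¹ x) = x := by simp
      rw [Pi.mulSingle_eq_same, e0] at h2
      exact h2

end sym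

/-! ### the main theorem -/

open Subgroup Cfsg.Agent.Omega.Transv Cfsg.Agent.Omega.FFBr.Two in
theorem two {X V : Type*} [Group X] [Group V] [MulDistribMulAction X V] {T : Sylow 2 X} {M : Subgroup X}
    [Finite X] [Finite V] (hA : Ab X V T M) {d : X} (hd1 : d ≠ 1) (hd : (cv V ({d} : Set X)).index ≤ 2) :
    ∃ (r : ℕ) (E : Fin r → Subgroup X), Concl V 2 (T : Subgroup X) r E := by
  classical
  let i1 : AddCommGroup (Additive V) :=
    { (inferInstance : AddGroup (Additive V)) with
      add_comm := fun v w => congrArg Additive.ofMul (hA.comm (Additive.toMul v) (Additive.toMul w)) }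
  let i2 : Module (ZMod 2) (Additive V) := AddCommGroup.zmodModule (n := 2) fun v => by
    rw [two_nsmul]
    exact congrArg Additive.ofMul (hA.sq (Additive.toMul v))
  let i3 : DistribMulAction X (Additive V) :=
    { smul := fun x v => Additive.ofMul (x • Additive.toMul v)
      one_smul := fun v => congrArg Additive.ofMul (one_smul X (Additive.toMul v))
      mul_smul := fun x y v => congrArg Additive.ofMul (mul_smul x y (Additive.toMul v))
      smul_zero := fun x => congrArg Additive.ofMul (smul_one x)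
      smul_add := fun x v w => congrArg Additive.ofMul (smul_mul' x (Additive.toMul v) (Additive.toMul w)) }
  have i : Tr X (Additive.ofMul : V → Additive V) :=
    ⟨Additive.ofMul.injective, Additive.ofMul.surjective, fun _ _ => rfl, fun _ _ => rfl⟩
  have : Finite (Additive V) := inferInstanceAs (Finite V)
  -- `d` is a transvection
  set K : Subgroup V := cv V ({d} : Set X) with hK
  have hmem : ∀ v : V, v ∈ K ↔ d • v = v := fun v => mem_cv_singleton
  have hne : K ≠ ⊤ := by
    intro h0
    apply hd1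
    refine hA.faith d fun v => ?_
    rw [← hmem, h0]
    exact mem_top v
  have hidx : K.index = 2 := by
    have h1 : K.index ≠ 1 := fun h0 => hne (Subgroup.index_eq_one.1 h0)
    have h2 : K.index ≠ 0 := Subgroup.index_ne_zero_of_finite
    omega
  obtain ⟨v0, hv0⟩ : ∃ v0, v0 ∉ K := by
    by_contra hcon
    push Not at hcon
    exact hne (eq_top_iff.2 fun v _ => hcon v)
  let χ0 : Additive V →+ ZMod 2 :=
    { toFun := fun v => if Additive.toMul v ∈ K then 0 else 1
      map_zero' := if_pos (one_mem K)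
      map_add' := fun v w => by
        have h1 : (Additive.toMul (v + w) ∈ K ↔ (Additive.toMul v ∈ K ↔ Additive.toMul w ∈ K)) :=
          Subgroup.mul_mem_iff_of_index_two hidx
        by_cases h2 : Additive.toMul v ∈ K
        · by_cases h3 : Additive.toMul w ∈ K
          · rw [if_pos (h1.2 ⟨fun _ => h3, fun _ => h2⟩), if_pos h2, if_pos h3, add_zero]
          · rw [if_neg fun h0 => h3 ((h1.1 h0).1 h2), if_pos h2, if_neg h3, zero_add]
        · by_cases h3 : Additive.toMul w ∈ K
          · rw [if_neg fun h0 => h2 ((h1.1 h0).2 h3), if_neg h2, if_pos h3, add_zero]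
          · rw [if_pos (h1.2 ⟨fun h0 => absurd h0 h2, fun h0 => absurd h0 h3⟩), if_neg h2, if_neg h3]
            decide }
  let χ : Du (Additive V) := χ0.toZModLinearMap 2
  have hχ : ∀ v : V, χ (Additive.ofMul v) = if v ∈ K then 0 else 1 := fun v => rfl
  have hTv : Tv d (Additive.ofMul (d • v0 * v0)) χ := by
    refine ⟨fun h0 => ?_, fun h0 => ?_, fun v => ?_⟩
    · have h1 : d • v0 * v0 = 1 := h0
      rw [mul_eq_one_iff_eq_inv] at h1
      have h2 : v0⁻¹ = v0 := inv_eq_of_mul_eq_one_left (hA.sq v0)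
      rw [h2] at h1
      exact hv0 ((hmem v0).2 h1)
    · have h1 := LinearMap.congr_fun h0 (Additive.ofMul v0)
      rw [hχ, if_neg hv0] at h1
      exact one_ne_zero h1
    · obtain ⟨v, rfl⟩ := Additive.ofMul.surjective v
      rw [hχ]
      by_cases h1 : v ∈ K
      · rw [if_pos h1, zero_smul, add_zero]
        exact congrArg Additive.ofMul ((hmem v).1 h1)
      · rw [if_neg h1, one_smul]
        have h2 : v0⁻¹ * v ∈ K := by
          rw [Subgroup.mul_mem_iff_of_index_two hidx, inv_mem_iff]
          exact ⟨fun h0 => absurd h0 hv0, fun h0 => absurd h0 h1⟩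
        have h3 := (hmem _).1 h2
        rw [smul_mul', smul_inv'] at h3
        have h4 : d • v = v * (d • v0 * v0) := by
          have h5 : v0⁻¹ = v0 := inv_eq_of_mul_eq_one_left (hA.sq v0)
          have h6 : d • v = (d • v0) * (v0⁻¹ * v) := by
            rw [← h3, mul_inv_cancel_left]
          rw [h6, h5, hA.comm v, mul_assoc]
        exact congrArg Additive.ofMul h4
  have hG : Gen X (Additive V) T M :=
    { faith := fun g hg => hA.faith g fun v => hg (Additive.ofMul v)
      le := hA.TM
      ne := hA.Mne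
      max := hA.max
      core := hA.core
      tv := ⟨d, hTv.mem⟩ }
  obtain ⟨k, m, w, h⟩ := hG.main
  exact ⟨k, _, concl_of_sym h i hA.sq⟩

/-- **the structure theorem, `p = 2`** -/
theorem concl {X V : Type*} [Group X] [Group V] [MulDistribMulAction X V] [Finite X] [Finite V]
    {T : Sylow 2 X} {M : Subgroup X} (h : Ab X V T M) (hoff : ∃ A : Subgroup X, AOff V A) :
    ∃ (r : ℕ) (E : Fin r → Subgroup X), Concl V 2 (T : Subgroup X) r E := by
  obtain ⟨D, q, Q, hL⟩ := exists_loc h hoff
  rcases Nat.lt_or_ge 2 q with hq | hq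
  · obtain ⟨k, A, B, hk, o, -⟩ := hL.exists_out hq
    exact ⟨k, _, concl_of_out hk o⟩
  · obtain ⟨A, B, hAt, -⟩ := hL.two
    have h1 : Nat.card A = q := hL.card A hAt.mem
    have h2 : (cv V (A : Set X)).index = q := hL.idx A hAt.mem
    have h3 : q = 2 := le_antisymm hq hL.two_le
    obtain ⟨d, hd, hd1⟩ : ∃ d ∈ A, d ≠ 1 := by
      by_contra hcon
      push Not at hcon
      have : A = ⊥ := eq_bot_iff.2 fun x hx => Subgroup.mem_bot.2 (hcon x hx)
      rw [this, Subgroup.card_bot] at h1
      omega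
    refine two h hd1 ?_
    have h4 : cv V (A : Set X) ≤ cv V ({d} : Set X) :=
      Cfsg.Agent.ClassTwoFusion.Quad.cv_anti (Set.singleton_subset_iff.2 hd)
    have h5 := Nat.le_of_dvd (Nat.pos_of_ne_zero Subgroup.index_ne_zero_of_finite) (Subgroup.index_dvd_of_le h4)
    omega

end Cfsg.Agent.H262.OffTwo
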