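import Cfsg.Agent.H262.OffTwo

/-!
# S3000 for `p = 2`
-/

set_option autoImplicit false

open scoped commutatorElement

namespace Cfsg.Agent.H262.S3000Two

open Cfsg.Agent.H262.Concl Cfsg.Agent.H262.OffTwo Cfsg.Agent.Omega.FFBr

/-- the action by conjugation, multiplicative -/
@[reducible] def actM {G : Type*} [Group G] {V P : Subgroup G} (hPV : P ≤ Subgroup.normalizer (V : Set G)) :
    MulDistribMulAction ↥P ↥V where
  smul g v := ⟨(g : G) * v * (g : G)⁻¹, ((Subgroup.mem_normalizer_iff.1 (hPV g.2)) v).1 v.2⟩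
  one_smul v := Subtype.ext (by
    show ((1 : ↥P) : G) * v * ((1 : ↥P) : G)⁻¹ = v
    simp)
  mul_smul g h v := Subtype.ext (by
    show ((g * h : ↥P) : G) * v * ((g * h : ↥P) : G)⁻¹ = g * (h * v * (h : G)⁻¹) * (g : G)⁻¹
    rw [Subgroup.coe_mul]; group)
  smul_mul g v w := Subtype.ext (by
    show (g : G) * ((v * w : ↥V) : G) * (g : G)⁻¹ = (g * v * (g : G)⁻¹) * (g * w * (g : G)⁻¹)
    rw [Subgroup.coe_mul]; group)
  smul_one g := Subtype.ext (by
    show (g : G) * ((1 : ↥V) : G) * (g : G)⁻¹ = ((1 : ↥V) : G)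
    rw [Subgroup.coe_one]; group)

/-- **S3000 for `p = 2`** -/
theorem s3000_two {G : Type*} [Group G] [Finite G] {p : ℕ} [Fact p.Prime] (hp2 : p = 2) (V P : Subgroup G) (hV : Cfsg.IsElementaryAbelian p V) (hPV : P ≤ Subgroup.normalizer (V : Set G)) (hfaith : P ⊓ Subgroup.centralizer (V : Set G) = ⊥) (hmin : Cfsg.IsPMinimal p ↥P) (T : Sylow p ↥P) (M : Subgroup ↥P) (hM : IsCoatom M) (hTM : (T : Subgroup ↥P) ≤ M) (hOp : Cfsg.pCore p ↥P = ⊥) (hoff : ∃ A : Subgroup G, A ≤ P ∧ ¬ A ≤ Subgroup.centralizer (V : Set G) ∧ Cfsg.IsBestOffenderOn p V A) (hCT : P ⊓ Subgroup.centralizer ((V ⊓ Subgroup.centralizer ((((T : Subgroup ↥P).map P.subtype) : Subgroup G) : Set G)) : Set G) ≤ M.map P.subtype) : ∃ (r : ℕ) (E : Fin r → Subgroup G), 1 ≤ r ∧ (∀ i, E i ≤ P) ∧ (∀ i j, i ≠ j → ⁅E i, E j⁆ = ⊥) ∧ (∀ i, E i ⊓ (⨆ j ∈ {j | j ≠ i}, E j) = ⊥) ∧ (⨆ i, E i) ⊔ ((T : Subgroup ↥P).map P.subtype) = P ∧ (∀ i j, ∃ t ∈ ((T : Subgroup ↥P).map P.subtype), (E i).map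 (MulAut.conj t).toMonoidHom = E j) ∧ (V ⊓ Subgroup.centralizer (((⨆ i, E i) : Subgroup G) : Set G)) ⊔ (⨆ i, ⁅V, E i⁆) = V ∧ (∀ i j, i ≠ j → ⁅⁅V, E i⁆, E j⁆ = ⊥) ∧ ∀ i, ∃ n : ℕ, 1 ≤ n ∧ ((∃ (F : Type) (_ : Field F) (_ : Fintype F), Fintype.card F = p ^ n ∧ Nonempty (↥(E i) ≃* Matrix.SpecialLinearGroup (Fin 2) F) ∧ Cfsg.ActsAsSL2OnSection F ⊤ (E i) ⁅V, E i⁆ (⁅V, E i⁆ ⊓ Subgroup.centralizer ((E i : Subgroup G) : Set G))) ∨ (p = 2 ∧ Nonempty (↥(E i) ≃* Equiv.Perm (Fin (2 ^ n + 1))) ∧ Cfsg.ActsAsOddPermModuleOnSection (2 ^ n + 1) ⊤ (E i) ⁅V, E i⁆ (⁅V, E i⁆ ⊓ Subgroup.centralizer ((E i : Subgroup G) : Set G)))) := by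
  classical
  subst hp2
  let inst : MulDistribMulAction ↥P ↥V := actM hPV
  have hsm : ∀ (g : ↥P) (v : ↥V), ((g • v : ↥V) : G) = (g : G) * v * (g : G)⁻¹ := fun g v => rfl
  have hsme : ∀ (g : ↥P) (v : ↥V), g • v = v ↔ (g : G) * v = v * g := by
    intro g v
    rw [Subtype.ext_iff, hsm, mul_inv_eq_iff_eq_mul]
  obtain ⟨hTn, M', ⟨hM'1, hM'2⟩, hM'u⟩ := hmin T
  have hMM' : M = M' := hM'u M ⟨hM, hTM⟩
  have hf : ∀ g : ↥P, (∀ v : ↥V, g • v = v) → g = 1 := by
    intro g hg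
    have h1 : (g : G) ∈ P ⊓ Subgroup.centralizer (V : Set G) := by
      refine ⟨g.2, ?_⟩
      show (g : G) ∈ Subgroup.centralizer (V : Set G)
      rw [Subgroup.mem_centralizer_iff]
      intro v hv
      exact ((hsme g ⟨v, hv⟩).1 (hg ⟨v, hv⟩)).symm
    rw [hfaith, Subgroup.mem_bot] at h1
    exact Subtype.ext h1
  have hAb : Ab ↥P ↥V T M :=
    { comm := fun v w => hV.1.is_comm.comm v w
      sq := fun v => Subtype.ext (by
        have := hV.2 v v.2
        rw [sq] at this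
        exact this)
      faith := hf
      core := by
        intro N hN hN2
        rw [eq_bot_iff, ← hOp]
        exact le_sSup ⟨hN, hN2⟩
      TM := hTM
      Mne := hM.1
      max := by
        intro K hTK
        by_cases hK : K = ⊤
        · exact Or.inr hK
        · left
          obtain ⟨M₂, hM₂, hle⟩ := (eq_top_or_exists_le_coatom K).resolve_left hK
          rw [hMM', ← hM'u M₂ ⟨hM₂, hTK.trans hle⟩]
          exact hle
      nfix := by
        by_contra hcon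
        push Not at hcon
        apply hM.1
        rw [eq_top_iff]
        intro x _
        have h1 : (x : G) ∈ M.map P.subtype := by
          apply hCT
          refine ⟨x.2, ?_⟩
          show (x : G) ∈ Subgroup.centralizer _
          rw [Subgroup.mem_centralizer_iff]
          rintro v ⟨hv, hvT⟩
          have h2 := hcon ⟨v, hv⟩ (by
            intro t ht
            rw [hsme]
            exact (Subgroup.mem_centralizer_iff.1 hvT t ⟨t, ht, rfl⟩)) x
          exact ((hsme _ _).1 h2).symm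
        obtain ⟨y, hy, hyx⟩ := h1
        rwa [show y = x from Subtype.ext hyx] at hy }
  have hOff : ∃ A : Subgroup ↥P, AOff ↥V A := by
    obtain ⟨A, hAP, hAV, hAbest, hAcomm, hAsq⟩ := hoff
    have hmem : ∀ g : ↥P, (g : G) ∈ Subgroup.centralizer (V : Set G) → g = 1 := by
      intro g hg
      have h1 : (g : G) ∈ P ⊓ Subgroup.centralizer (V : Set G) := ⟨g.2, hg⟩
      rw [hfaith, Subgroup.mem_bot] at h1
      exact Subtype.ext h1
    refine ⟨A.subgroupOf P, ?_, ?_, ?_, ?_⟩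
    · intro a ha b hb
      have h1 : ⁅a, b⁆ = 1 := hmem _ (hAcomm (Subgroup.commutator_mem_commutator ha hb))
      exact commutatorElement_eq_one_iff_mul_comm.1 h1
    · intro a ha
      have h1 : a ^ 2 = 1 := hmem _ (hAsq a ha)
      rw [← sq]; exact h1
    · intro h0
      apply hAV
      intro a ha
      have h1 : (⟨a, hAP ha⟩ : ↥P) ∈ A.subgroupOf P := ha
      rw [h0, Subgroup.mem_bot] at h1
      have h2 : a = 1 := congrArg Subtype.val h1
      rw [h2]; exact one_mem _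
    · have h1 := hAbest ⊥ bot_le
      have hbot : V ⊓ Subgroup.centralizer (((⊥ : Subgroup G)) : Set G) = V := by
        rw [inf_eq_left]
        intro v _
        rw [Subgroup.mem_centralizer_iff]
        intro b hb
        rw [Subgroup.coe_bot, Set.mem_singleton_iff] at hb
        rw [hb]; simp
      rw [Subgroup.card_bot, one_mul, hbot] at h1
      have h2 : Nat.card (A.subgroupOf P) = Nat.card A :=
        Nat.card_congr (Subgroup.subgroupOfEquivOfLe hAP).toEquiv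
      set C := Cfsg.Agent.ClassTwoFusion.Quad.cv ↥V ((A.subgroupOf P : Subgroup ↥P) : Set ↥P) with hC
      have h3 : Nat.card C = Nat.card ↥(V ⊓ Subgroup.centralizer (A : Set G)) := by
        apply Nat.card_congr
        refine ⟨fun v => ⟨((v : ↥V) : G), (v : ↥V).2, ?_⟩, fun v => ⟨⟨v, v.2.1⟩, ?_⟩, fun v => rfl, fun v => rfl⟩
        · show ((v : ↥V) : G) ∈ Subgroup.centralizer _
          rw [Subgroup.mem_centralizer_iff]
          intro a ha
          exact (hsme ⟨a, hAP ha⟩ v).1 (v.2 ⟨a, hAP ha⟩ ha)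
        · intro a ha
          rw [hsme]
          exact Subgroup.mem_centralizer_iff.1 v.2.2 a ha
      have h4 := C.index_mul_card
      rw [h2]
      have h5 : 0 < Nat.card C := Nat.card_pos
      rw [← h3] at h1
      have h6 : C.index * Nat.card C ≤ Nat.card A * Nat.card C := by rw [h4]; exact h1
      exact Nat.le_of_mul_le_mul_right h6 h5
  obtain ⟨r, E, hE⟩ := concl hAb hOff
  exact translate V P hV hPV hfaith (T : Subgroup ↥P) hsm hE

end Cfsg.Agent.H262.S3000Two
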